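import Cfsg.Agent.H893.RelV
import Cfsg.Agent.H595.Count
import Cfsg.Agent.H597.FrobC
import Cfsg.Agent.CharactersDeep.AbelianQuotient

/-!
# The Glauberman case of S4992 (helper158, for helper726)
-/

set_option autoImplicit false
set_option linter.unusedSectionVars false
set_option linter.style.haveILetI false

namespace Cfsg.Agent.H158.Gla

open Cfsg Subgroup
open Cfsg.Agent.Characters.Core Cfsg.Agent.Characters.Clifford
open Cfsg.Agent.H726.Rel Cfsg.Agent.H672
open scoped ComplexConjugate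

universe u

/-! ### transitivity -/

/-- If the quotient of `X` by `K` is abelian, two irreducible characters with non-orthogonal restrictions to
`K` differ by a linear character. -/
theorem exists_lin {X : Type*} [Group X] [Finite X] (K : Subgroup X) [K.Normal]
    (hab : ∀ x y : X, x * y * x⁻¹ * y⁻¹ ∈ K) [Fintype K] {ρ ρ' : X → ℂ} (hρ : IsIrrCharacter X ρ)
    (hρ' : IsIrrCharacter X ρ') (h : ∑ n : K, ρ' n * conj (ρ n) ≠ 0) :
    ∃ l : X →* ℂˣ, (∀ n ∈ K, l n = 1) ∧ ∀ x, ρ' x = l x * ρ x := by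
  classical
  have := Fintype.ofFinite X
  obtain ⟨Λ, hΛ, -, h1, h2⟩ := Cfsg.Agent.CharactersDeep.AbelianQuotient.exists_linear_dual K hab
  by_contra hcon
  push Not at hcon
  have hI0 : (K.index : ℂ) ≠ 0 := Nat.cast_ne_zero.2 Subgroup.index_ne_zero_of_finite
  have e1 : (K.index : ℂ) * ∑ n : K, ρ' n * conj (ρ n) =
      ∑ g : X, (∑ l ∈ Λ, (l g : ℂ)) * (ρ' g * conj (ρ g)) := by
    have e0 : ∑ g ∈ Finset.univ.filter (fun g => g ∈ K), (∑ l ∈ Λ, (l g : ℂ)) *
        (ρ' g * conj (ρ g)) = ∑ g ∈ Finset.univ.filter (fun g => g ∈ K),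
          (K.index : ℂ) * (ρ' g * conj (ρ g)) :=
      Finset.sum_congr rfl (fun g hg => by rw [h1 g (by simpa using hg)])
    rw [← Finset.sum_filter_add_sum_filter_not Finset.univ (fun g => g ∈ K)]
    rw [Finset.sum_eq_zero (s := Finset.univ.filter (fun g => ¬ g ∈ K)), add_zero,
      Finset.mul_sum, e0]
    · exact (Finset.sum_subtype (p := fun g => g ∈ K) (Finset.univ.filter (fun g => g ∈ K))
        (by simp) (fun g => (K.index : ℂ) * (ρ' g * conj (ρ g)))).symm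
    · intro g hg
      rw [h2 g (by simpa using hg), zero_mul]
  have e2 : ∑ g : X, (∑ l ∈ Λ, (l g : ℂ)) * (ρ' g * conj (ρ g)) = 0 := by
    simp only [Finset.sum_mul]
    rw [Finset.sum_comm]
    refine Finset.sum_eq_zero fun l hl => ?_
    have h3 : classInner ((fun g => (l g : ℂ)) * ρ') ρ = 0 := by
      rw [classInner_irr (Cfsg.Agent.CharactersDeep.AbelianQuotient.isIrr_linear_mul l hρ') hρ]
      rw [if_neg]
      intro h4
      obtain ⟨x, hx⟩ := hcon l⁻¹ (fun n hn => by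
        rw [MonoidHom.inv_apply, (hΛ l).1 hl n hn, inv_one])
      refine hx ?_
      rw [← h4, Pi.mul_apply, MonoidHom.inv_apply, ← mul_assoc, ← Units.val_mul, inv_mul_cancel,
        Units.val_one, one_mul]
    have h5 : (Nat.card X : ℂ)⁻¹ * ∑ g : X, ((l g : ℂ) * ρ' g) * conj (ρ g) = 0 := h3
    have hX0 : (Nat.card X : ℂ)⁻¹ ≠ 0 := inv_ne_zero (Nat.cast_ne_zero.2 Nat.card_pos.ne')
    rw [← (mul_eq_zero.1 h5).resolve_left hX0]
    exact Finset.sum_congr rfl fun g _ => by ring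
  rw [e2] at e1
  exact h ((mul_eq_zero.1 e1).resolve_left hI0)

/-! ### Glauberman's lemma -/

section abs

variable {A Ω C : Type*} [CommGroup A] (tw : A → Ω → Ω) (one : ∀ x, tw 1 x = x) (mul : ∀ a b x, tw (a * b) x = tw a (tw b x))

/-- the stabiliser -/
def stab (one : ∀ x, tw 1 x = x) (mul : ∀ a b x, tw (a * b) x = tw a (tw b x)) (x : Ω) : Subgroup A where
  carrier := {l | tw l x = x}
  one_mem' := one x
  mul_mem' := by
    intro l m hl hm
    show tw (l * m) x = x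
    rw [mul, show tw m x = x from hm, show tw l x = x from hl]
  inv_mem' := by
    intro l hl
    show tw l⁻¹ x = x
    have h1 : tw l x = x := hl
    conv_lhs => rw [← h1]
    rw [← mul, inv_mul_cancel, one]

theorem tw_eq_iff {l m : A} {x : Ω} : tw l x = tw m x ↔ l * m⁻¹ ∈ stab tw one mul x := by
  show _ ↔ tw (l * m⁻¹) x = x
  constructor
  · intro h
    rw [mul_comm, mul, h, ← mul, inv_mul_cancel, one]
  · intro h
    have h1 : l = m * (l * m⁻¹) := by rw [mul_comm l, mul_inv_cancel_left]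
    conv_lhs => rw [h1]
    rw [mul, h]

include one mul in
/-- **Glauberman's lemma**, for an abelian group -/
theorem glauberman [Group C] [Finite C] (actA : C → A →* A) (actO : C → Ω → Ω)
    (hm : ∀ a b x, actO (a * b) x = actO a (actO b x)) (ht : ∀ a l x, actO a (tw l x) = tw (actA a l) (actO a x))
    {N : ℕ} (hN : 0 < N) (hA : ∀ l : A, l ^ N = 1) (hcop : (Nat.card C).Coprime N) {x : Ω} (Λ : Subgroup A)
    (h : ∀ a, ∃ l ∈ Λ, actO a x = tw l x) : ∃ l ∈ Λ, ∀ a, actO a (tw l x) = tw l x := by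
  classical
  have := Fintype.ofFinite C
  choose L hL1 hL2 using h
  obtain ⟨μ, hμ⟩ : ∃ μ, μ = ∏ b : C, L b := ⟨_, rfl⟩
  have hμΛ : μ ∈ Λ := by
    rw [hμ]
    exact prod_mem fun b _ => hL1 b
  have key : ∀ a, μ * (actA a μ * L a ^ Nat.card C)⁻¹ ∈ stab tw one mul x := by
    intro a
    have h1 : μ = ∏ b : C, L (a * b) := by
      rw [hμ]
      exact (Equiv.prod_comp (Equiv.mulLeft a) L).symm
    have h2 : actA a μ * L a ^ Nat.card C = ∏ b : C, (actA a (L b) * L a) := by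
      rw [Finset.prod_mul_distrib, Finset.prod_const, Finset.card_univ, ← Nat.card_eq_fintype_card, hμ, map_prod]
    rw [h2]
    conv => enter [2, 1]; rw [h1]
    rw [← Finset.prod_inv_distrib, ← Finset.prod_mul_distrib]
    refine prod_mem fun b _ => ?_
    rw [← tw_eq_iff]
    rw [← hL2, hm, hL2 b, ht, hL2 a, mul]
  obtain ⟨e, he⟩ : ∃ e : ℕ, Nat.card C * e ≡ 1 [MOD N] := by
    rcases Nat.lt_or_ge 1 N with h | h
    · obtain ⟨e, -, he⟩ := Nat.exists_mul_mod_eq_one_of_coprime hcop h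
      exact ⟨e, by rw [Nat.ModEq, he, Nat.mod_eq_of_lt h]⟩
    · have h3 : N = 1 := le_antisymm h hN
      exact ⟨1, by rw [h3]; exact Nat.modEq_one⟩
  refine ⟨μ ^ e, pow_mem hμΛ e, fun a => ?_⟩
  have h1 : L a ^ (Nat.card C * e) = L a := by
    have h2 : orderOf (L a) ∣ N := orderOf_dvd_of_pow_eq_one (hA _)
    have h3 : L a ^ (Nat.card C * e) = L a ^ 1 := pow_eq_pow_iff_modEq.2 (he.of_dvd h2)
    rw [h3, pow_one]
  have h2 := pow_mem (key a) e
  rw [mul_pow, inv_pow, mul_pow, ← pow_mul, h1, ← map_pow] at h2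
  rw [ht, hL2 a, ← mul]
  exact ((tw_eq_iff tw one mul).2 h2).symm

end abs

section gla

variable {J : Type*} [Group J] [Finite J] (S : Subgroup J) [S.Normal]

/-- conjugation of the linear characters of `S` -/
def act (a : J) : (S →* ℂˣ) →* (S →* ℂˣ) := MonoidHom.compHom' (MulAut.conjNormal a⁻¹ : MulAut S).toMonoidHom

theorem act_apply (a : J) (l : S →* ℂˣ) (s : S) : act S a l s = l (MulAut.conjNormal a⁻¹ s) := rfl

/-- conjugation of the functions on `S` -/
def cact (a : J) (χ : S → ℂ) : S → ℂ := fun s => χ (MulAut.conjNormal a⁻¹ s)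

theorem cact_mul (a b : J) (χ : S → ℂ) : cact S (a * b) χ = cact S a (cact S b χ) := by
  funext s
  show χ _ = χ _
  rw [mul_inv_rev, map_mul, MulAut.mul_apply]

theorem cact_irr (a : J) {χ : S → ℂ} (h : IsIrrCharacter S χ) : IsIrrCharacter S (cact S a χ) :=
  isIrr_comp (MulAut.conjNormal a⁻¹ : MulAut S).toMonoidHom (MulEquiv.surjective _) h

/-- a linear character times a function -/
def tw (l : S →* ℂˣ) (χ : S → ℂ) : S → ℂ := fun s => (l s : ℂ) * χ s

theorem tw_mul (l m : S →* ℂˣ) (χ : S → ℂ) : tw S (l * m) χ = tw S l (tw S m χ) := by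
  funext s
  show ((l s * m s : ℂˣ) : ℂ) * χ s = (l s : ℂ) * ((m s : ℂ) * χ s)
  rw [Units.val_mul, mul_assoc]

theorem tw_one (χ : S → ℂ) : tw S 1 χ = χ := by
  funext s
  show ((1 : ℂˣ) : ℂ) * χ s = χ s
  rw [Units.val_one, one_mul]

theorem cact_tw (a : J) (l : S →* ℂˣ) (χ : S → ℂ) : cact S a (tw S l χ) = tw S (act S a l) (cact S a χ) := rfl

theorem pow_hom (l : S →* ℂˣ) : l ^ Nat.card S = 1 := by
  ext s
  show ((l s ^ Nat.card S : ℂˣ) : ℂ) = ((1 : ℂˣ) : ℂ)
  rw [← map_pow, pow_card_eq_one', map_one]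

/-- **Glauberman's lemma** for the action of a complement. -/
theorem exists_inv {C : Subgroup J} (hcop : (Nat.card C).Coprime (Nat.card S)) {ρ : S → ℂ}
    (Λ : Subgroup (S →* ℂˣ))
    (h : ∀ a : C, ∃ l ∈ Λ, cact S a ρ = tw S l ρ) : ∃ l ∈ Λ, ∀ a : C, cact S a (tw S l ρ) = tw S l ρ :=
  glauberman (C := C) (tw S) (tw_one S) (tw_mul S) (fun a => act S a) (fun a => cact S a)
    (fun a b x => cact_mul S a b x) (fun a l x => cact_tw S a l x) (N := Nat.card S) Nat.card_pos (pow_hom S) hcop Λ h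

end gla

/-! ### the main theorem -/

section main

variable {J : Type u} [Group J] [Finite J] {p : ℕ} [Fact p.Prime] {N S : Subgroup J} [N.Normal] [S.Normal]

theorem sum_restrict {ρ ρ' : S → ℂ} (hNS : N ≤ S) {θ : N → ℂ} (hθ : IsIrrCharacter N θ) {c c' : ℂ} (hc : c ≠ 0) (hc' : c' ≠ 0)
    (h : ∀ n : N, ρ ⟨n, hNS n.2⟩ = c * θ n) (h' : ∀ n : N, ρ' ⟨n, hNS n.2⟩ = c' * θ n) [Fintype (N.subgroupOf S)] :
    ∑ n : N.subgroupOf S, ρ' n * conj (ρ n) ≠ 0 := by
  classical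
  have := Fintype.ofFinite N
  have e : ∑ n : N.subgroupOf S, ρ' n * conj (ρ n) = ∑ n : N, ρ' ⟨n, hNS n.2⟩ * conj (ρ ⟨n, hNS n.2⟩) := by
    refine Fintype.sum_equiv (Subgroup.subgroupOfEquivOfLe hNS).toEquiv _ _ fun x => ?_
    rfl
  have h1 : (Nat.card N : ℂ)⁻¹ * ∑ n : N, θ n * conj (θ n) = 1 := classInner_irr_self hθ
  have h0 : (Nat.card N : ℂ) ≠ 0 := Nat.cast_ne_zero.2 Nat.card_pos.ne'
  have h2 : ∑ n : N, θ n * conj (θ n) = Nat.card N := by
    rw [← mul_right_inj' (inv_ne_zero h0), h1, inv_mul_cancel₀ h0]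
  have h3 : ∑ n : N, ρ' ⟨n, hNS n.2⟩ * conj (ρ ⟨n, hNS n.2⟩) = (c' * conj c) * ∑ n : N, θ n * conj (θ n) := by
    rw [Finset.mul_sum]
    refine Finset.sum_congr rfl fun n _ => ?_
    rw [h, h', map_mul]
    ring
  rw [e, h3, h2]
  exact mul_ne_zero (mul_ne_zero hc' ((map_ne_zero _).2 hc)) h0

theorem restr (hNS : N ≤ S) {θ : N → ℂ} (hθ : IsIrrCharacter N θ) (hinv : inertia N θ = ⊤) {ρ : S → ℂ}
    (hρ : IsIrrCharacter S ρ) (ho : Over (Subgroup.inclusion hNS) ρ θ) :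
    ∃ c : ℂ, c ≠ 0 ∧ ∀ n : N, ρ ⟨n, hNS n.2⟩ = c * θ n := by
  classical
  letI := Fintype.ofFinite J
  letI := Fintype.ofFinite N
  letI := Fintype.ofFinite S
  rw [over_iff] at ho
  refine ⟨classInner (fun n : N => ρ ⟨(n : J), hNS n.2⟩) θ, ho, fun n => ?_⟩
  exact CharDeep.CliffordCorr.restrict_eq_mul_of_invariant N S hNS hρ hθ
      (fun x _ => mem_inertia_iff.1 (by rw [hinv]; trivial)) ho n

/-- an invariant character of `S` over `θ` -/
theorem exists_rho (hNS : N ≤ S) (hSp : IsPGroup p S)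
    (hSi : ¬ p ∣ S.index) (hSab : ∀ a ∈ S, ∀ b ∈ S, a * b * a⁻¹ * b⁻¹ ∈ N) {θ : N → ℂ}
    (hθ : IsIrrCharacter N θ) (hinv : inertia N θ = ⊤) :
    ∃ ρ : S → ℂ, IsIrrCharacter S ρ ∧ (∀ a : J, cact S a ρ = ρ) ∧ ∃ c : ℂ, c ≠ 0 ∧ ∀ n : N, ρ ⟨n, hNS n.2⟩ = c * θ n := by
  classical
  letI := Fintype.ofFinite S
  obtain ⟨χ, hχ, ho⟩ := exists_over N θ hθ
  have hsub : N.subtype = S.subtype.comp (Subgroup.inclusion hNS) := rfl
  rw [hsub, over_comp_iff S.subtype (Subgroup.inclusion hNS) (isIrr_isCharacter hχ) hθ] at ho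
  obtain ⟨ρ, hρ, -, hρθ⟩ := ho
  obtain ⟨c, hc0, hc⟩ := restr hNS hθ hinv hρ hρθ
  obtain ⟨k, hk⟩ := IsPGroup.iff_card.1 hSp
  have hcopS : (Nat.card S).Coprime S.index := by
    rw [hk]
    exact Nat.Coprime.pow_left _ ((Nat.Prime.coprime_iff_not_dvd Fact.out).2 hSi)
  obtain ⟨C, hC⟩ := Subgroup.exists_right_complement'_of_coprime hcopS
  have hCi : Nat.card C = S.index := hC.symm.index_eq_card.symm
  let Λ : Subgroup (S →* ℂˣ) :=
    { carrier := {l | ∀ n ∈ N.subgroupOf S, l n = 1}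
      one_mem' := fun n _ => rfl
      mul_mem' := by
        intro l m hl hm n hn
        show l n * m n = 1
        rw [hl n hn, hm n hn, one_mul]
      inv_mem' := by
        intro l hl n hn
        show (l n)⁻¹ = 1
        rw [hl n hn, inv_one] }
  have hθinv : ∀ (a : J) (n : N), θ (MulAut.conjNormal a n) = θ n := fun a n => by
    have : a ∈ inertia N θ := by rw [hinv]; trivial
    exact mem_inertia_iff.1 this n
  obtain ⟨l, hlΛ, hl⟩ := exists_inv S (C := C) (by rw [hCi]; exact hcopS.symm) (ρ := ρ) Λ (fun a => by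
    have := Fintype.ofFinite (N.subgroupOf S)
    obtain ⟨l, h1, h2⟩ := exists_lin (N.subgroupOf S) (fun x y => hSab x x.2 y y.2) hρ (cact_irr S a hρ)
      (sum_restrict hNS hθ hc0 hc0 hc (fun n => by
        show ρ (MulAut.conjNormal (a : J)⁻¹ ⟨n, hNS n.2⟩) = _
        have h3 : (MulAut.conjNormal (a : J)⁻¹ ⟨n, hNS n.2⟩ : S) = ⟨(MulAut.conjNormal (a : J)⁻¹ n : N), hNS (Subtype.mem _)⟩ := by
          apply Subtype.ext
          rfl
        rw [h3, hc, hθinv]))
    exact ⟨l, h1, funext h2⟩)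
  have hirr : IsIrrCharacter S (tw S l ρ) :=
    Cfsg.Agent.CharactersDeep.AbelianQuotient.isIrr_linear_mul l hρ
  refine ⟨tw S l ρ, hirr, fun a => ?_, c, hc0, fun n => ?_⟩
  · obtain ⟨⟨⟨s, hs⟩, ⟨t, ht⟩⟩, hst⟩ := hC.surjective a
    have h1 : s * t = a := hst
    rw [← h1, cact_mul, hl ⟨t, ht⟩]
    funext x
    have h2 : (MulAut.conjNormal s⁻¹ x : S) = (⟨s, hs⟩ : S)⁻¹ * x * (⟨s, hs⟩ : S) := by
      apply Subtype.ext
      show s⁻¹ * (x : J) * s⁻¹⁻¹ = s⁻¹ * (x : J) * s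
      rw [inv_inv]
    show tw S l ρ (MulAut.conjNormal s⁻¹ x) = tw S l ρ x
    rw [h2]
    have h3 := isIrr_isClassFunction hirr x (⟨s, hs⟩ : S)⁻¹
    rwa [inv_inv] at h3
  · show (l ⟨n, hNS n.2⟩ : ℂ) * ρ ⟨n, hNS n.2⟩ = _
    rw [hlΛ ⟨n, hNS n.2⟩ (mem_subgroupOf.2 n.2), Units.val_one, one_mul, hc]

/-- **S4992-G** -/
theorem normal_case (hIM : IMT.{u}) (hNS : N ≤ S) (hSp : IsPGroup p S)
    (hSi : ¬ p ∣ S.index) (hSab : ∀ a ∈ S, ∀ b ∈ S, a * b * a⁻¹ * b⁻¹ ∈ N) {θ : N → ℂ}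
    (hθ : IsIrrCharacter N θ) (hinv : inertia N θ = ⊤) {ω : Set ℕ} (hpω : p ∉ ω)
    (hdeg : ∀ χ : J → ℂ, IsIrrCharacter J χ → Over N.subtype χ θ → PiNum ωᶜ (charDegree χ)) :
    AbHall ω (J ⧸ N) := by
  classical
  letI := Fintype.ofFinite J
  letI := Fintype.ofFinite N
  obtain ⟨ρ, hρ, hρinv, c, hc0, hc⟩ := exists_rho hNS hSp hSi hSab hθ hinv
  obtain ⟨k, hk⟩ := IsPGroup.iff_card.1 hSp
  have hcopS : (Nat.card S).Coprime S.index := by
    rw [hk]
    exact Nat.Coprime.pow_left _ ((Nat.Prime.coprime_iff_not_dvd Fact.out).2 hSi)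
  obtain ⟨χ, hχ, -⟩ := Cfsg.Agent.H595.Count.canon S hcopS ⟨ρ, hρ⟩ (fun x n => by
    have h1 := congrFun (hρinv x⁻¹) n
    have h2 : (MulAut.conjNormal x⁻¹⁻¹ n : S) = ⟨x * n * x⁻¹, (inferInstance : S.Normal).conj_mem n n.2 x⟩ := by
      apply Subtype.ext
      show x⁻¹⁻¹ * (n : J) * x⁻¹⁻¹⁻¹ = x * (n : J) * x⁻¹
      rw [inv_inv]
    have h3 : ρ (MulAut.conjNormal x⁻¹⁻¹ n) = ρ n := h1
    rw [h2] at h3
    exact h3)
  have hχ' : ∀ n : S, (χ : J → ℂ) n = ρ n := hχ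
  have hχS : IsIrrCharacter S (fun n : S => (χ : J → ℂ) n) := by
    have : (fun n : S => (χ : J → ℂ) n) = ρ := funext hχ'
    rw [this]
    exact hρ
  -- the degrees of `J / S`
  obtain ⟨K, hKn, hKc, hKω, hKi⟩ := Cfsg.Agent.H893.RelV.exists_hall (X := J ⧸ S) (ω := ω) (by
    intro q hq hqω P
    have : Fact q.Prime := ⟨hq⟩
    refine hIM q (J ⧸ S) (fun β hβ hqβ => ?_) P
    obtain ⟨β', hβ'⟩ : ∃ β' : J → ℂ, β' = β ∘ (QuotientGroup.mk' S) := ⟨_, rfl⟩
    have hβirr : IsIrrCharacter J β' := by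
      rw [hβ']
      exact isIrr_comp (QuotientGroup.mk' S) (QuotientGroup.mk'_surjective _) hβ
    have hker : ∀ n ∈ S, β' n = β' 1 := by
      intro n hn
      rw [hβ']
      show β (QuotientGroup.mk' S n) = β (QuotientGroup.mk' S 1)
      have h5 : QuotientGroup.mk' S n = 1 := (QuotientGroup.eq_one_iff _).2 hn
      rw [h5, map_one]
    have hm := Cfsg.Agent.H597.FrobC.isIrr_mul_of_restrict S χ.2 hχS hβirr hker
    have hd := Cfsg.Agent.H597.FrobC.charDegree_mul χ.2 hβirr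
    have ho : Over N.subtype (β' * (χ : J → ℂ)) θ := by
      rw [over_iff]
      have h6 : (β' * (χ : J → ℂ)) ∘ N.subtype = fun n => (β' 1 * c) * θ n := by
        funext n
        show β' (n : J) * (χ : J → ℂ) (n : J) = _
        rw [hker n (hNS n.2), hχ' ⟨n, hNS n.2⟩, hc, mul_assoc]
      rw [h6]
      have h7 : classInner (fun n => (β' 1 * c) * θ n) θ = (β' 1 * c) * classInner θ θ :=
        classInner_smul_left (β' 1 * c) θ θ
      rw [h7, classInner_irr_self hθ, mul_one]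
      exact mul_ne_zero (isIrr_apply_one_ne_zero hβirr) hc0
    have h6 : charDegree β' = charDegree β := by
      rw [hβ', charDegree_comp_one]
    have h7 := hdeg _ hm ho
    rw [hd, h6] at h7
    exact h7.of_mul_left q hq hqβ hqω)
  obtain ⟨C, hC⟩ := Subgroup.exists_right_complement'_of_coprime hcopS
  obtain ⟨L, hL⟩ : ∃ L, L = K.comap (QuotientGroup.mk' S) := ⟨_, rfl⟩
  have hLn : L.Normal := by rw [hL]; infer_instance
  have hSL : S ≤ L := by
    rw [hL]
    have := ker_le_comap (QuotientGroup.mk' S) K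
    rwa [QuotientGroup.ker_mk'] at this
  obtain ⟨B, hB⟩ : ∃ B, B = C ⊓ L := ⟨_, rfl⟩
  have hdis : Disjoint S C := hC.disjoint
  have hBS : ∀ x ∈ B, x ∈ S → x = 1 := by
    intro x hx hxS
    rw [hB] at hx
    have : x ∈ S ⊓ C := ⟨hxS, hx.1⟩
    rwa [disjoint_iff.1 hdis] at this
  have hBc : ∀ a ∈ B, ∀ b ∈ B, a * b = b * a := by
    intro a ha b hb
    have ha' : QuotientGroup.mk' S a ∈ K := by rw [hB, hL] at ha; exact ha.2
    have hb' : QuotientGroup.mk' S b ∈ K := by rw [hB, hL] at hb; exact hb.2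
    have h1 := hKc _ ha' _ hb'
    have h2 : a * b * a⁻¹ * b⁻¹ ∈ S := by
      rw [← QuotientGroup.eq_one_iff]
      show QuotientGroup.mk' S _ = 1
      rw [map_mul, map_mul, map_mul, map_inv, map_inv, h1]
      group
    have h3 := hBS _ (mul_mem (mul_mem (mul_mem ha hb) (inv_mem ha)) (inv_mem hb)) h2
    calc a * b = (a * b * a⁻¹ * b⁻¹) * (b * a) := by group
      _ = b * a := by rw [h3, one_mul]
  have hBcard : Nat.card B ∣ Nat.card K := by
    refine Subgroup.card_dvd_of_injective (f := ((QuotientGroup.mk' S).comp B.subtype).codRestrict K (fun x => ?_)) ?_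
    · obtain ⟨x, hx⟩ := x
      have h1 : x ∈ C ⊓ L := hB ▸ hx
      rw [hL] at h1
      exact h1.2
    · rw [injective_iff_map_eq_one]
      intro x hx
      have h1 : QuotientGroup.mk' S (x : J) = 1 := congrArg Subtype.val hx
      exact Subtype.ext (hBS _ x.2 ((QuotientGroup.eq_one_iff _).1 h1))
  have hBi : B.index = K.index * Nat.card S := by
    have h1 : B ≤ C := by rw [hB]; exact inf_le_left
    have h2 : B.relIndex C = L.relIndex C := by rw [hB, inf_comm, Subgroup.inf_relIndex_right]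
    have hsup : C ⊔ L = ⊤ := by
      rw [eq_top_iff, ← hC.sup_eq_top, sup_comm]
      exact sup_le_sup_left hSL C
    have h3 : L.relIndex C = L.index := by
      have h4 := Subgroup.relIndex_sup_right C L
      rw [hsup, relIndex_top_right] at h4
      exact h4.symm
    have h4 : L.index = K.index := by
      rw [hL]
      exact index_comap_of_surjective _ (QuotientGroup.mk'_surjective _)
    rw [← relIndex_mul_index h1, h2, h3, h4, hC.index_eq_card]
  refine ⟨B.map (QuotientGroup.mk' N), ?_, ?_, ?_⟩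
  · rintro _ ⟨a, ha, rfl⟩ _ ⟨b, hb, rfl⟩
    rw [← map_mul, ← map_mul, hBc a ha b hb]
  · exact hKω.of_dvd ((card_map_dvd B _).trans hBcard)
  · intro q hq hqi hqω
    have h1 : (B.map (QuotientGroup.mk' N)).index ∣ B.index := by
      rw [← index_comap_of_surjective (B.map (QuotientGroup.mk' N)) (QuotientGroup.mk'_surjective N)]
      exact index_dvd_of_le (le_comap_map _ _)
    rcases (hq.dvd_mul).1 (hBi ▸ (hqi.trans h1)) with h2 | h2
    · exact hKi q hq h2 hqω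
    · rw [hk] at h2
      have h3 := (Nat.prime_dvd_prime_iff_eq hq Fact.out).1 (hq.dvd_of_dvd_pow h2)
      exact hpω (h3 ▸ hqω)

end main

end Cfsg.Agent.H158.Gla
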