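import Mathlib
import Cfsg.Agent.H668.Five.Rows
import Cfsg.Agent.Lib.GenFitting
import Cfsg.Agent.Lib.ComponentSolvable

/-!
# S4874, case B: `O₂(H) ≠ 1` and `C_H(O₂(H)) ≰ O₂(H)` (helper158, task 4234)
-/

set_option autoImplicit false

open Cfsg

namespace Cfsg.Agent.H158.KFive

open Subgroup
open Cfsg.Agent.H668.Five
open scoped commutatorElement

/-- transfer: a central `p`-element of a perfect group lies in the derived subgroup of a Sylow subgroup -/
theorem central_mem_commutator {E : Type*} [Group E] [Finite E] (hE : Group.IsPerfect E) {p : ℕ} [Fact p.Prime]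
    (R : Sylow p E) {z : E} (hz : z ∈ center E) (hzR : z ∈ (R : Subgroup E)) :
    (⟨z, hzR⟩ : ↥(R : Subgroup E)) ∈ _root_.commutator ↥(R : Subgroup E) := by
  have h1 : MonoidHom.transfer (Abelianization.of : ↥(R : Subgroup E) →* Abelianization ↥(R : Subgroup E)) z = 1 := by
    have h2 : z ∈ _root_.commutator E := by rw [hE.commutator_eq_top]; exact mem_top z
    exact Abelianization.commutator_subset_ker _ h2
  have key : ∀ (k : ℕ) (g₀ : E), g₀⁻¹ * z ^ k * g₀ ∈ (R : Subgroup E) → g₀⁻¹ * z ^ k * g₀ = z ^ k := by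
    intro k g₀ _
    have h3 : g₀ * z ^ k = z ^ k * g₀ := mem_center_iff.1 (pow_mem hz k) g₀
    rw [mul_assoc, ← h3, inv_mul_cancel_left]
  rw [MonoidHom.transfer_eq_pow _ _ key] at h1
  have h2 := (QuotientGroup.eq_one_iff _).1 h1
  have h3 : (⟨z, hzR⟩ : ↥(R : Subgroup E)) ^ (R : Subgroup E).index ∈ _root_.commutator ↥(R : Subgroup E) := h2
  have hcop : Nat.Coprime (R : Subgroup E).index (orderOf (⟨z, hzR⟩ : ↥(R : Subgroup E))) := by
    obtain ⟨k, hk⟩ := IsPGroup.iff_orderOf.1 R.isPGroup' ⟨z, hzR⟩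
    rw [hk]
    refine Nat.Coprime.pow_right k ?_
    exact ((Nat.Prime.coprime_iff_not_dvd Fact.out).2 (Sylow.not_dvd_index R)).symm
  obtain ⟨m, hm⟩ := exists_pow_eq_self_of_coprime hcop
  rw [← hm]
  exact pow_mem h3 m

/-- a group with a central subgroup `O` of exponent two and index at most four: `|R'| ≤ 2` -/
theorem comm_le {R : Type*} [Group R] [Finite R] (O : Subgroup R) (hO : O ≤ center R) (he : ∀ x ∈ O, x ^ 2 = 1)
    (hidx : O.index ≤ 4) : ∃ c : R, c ^ 2 = 1 ∧ _root_.commutator R ≤ zpowers c := by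
  by_cases hc : ∀ x y : R, x * y = y * x
  · refine ⟨1, one_pow 2, ?_⟩
    rw [_root_.commutator_def, commutator_le]
    intro x _ y _
    rw [commutatorElement_eq_one_iff_mul_comm.2 (hc x y)]
    exact one_mem _
  push Not at hc
  obtain ⟨x, y, hxy⟩ := hc
  have hOc : ∀ o ∈ O, ∀ r : R, r * o = o * r := fun o ho r => mem_center_iff.1 (hO ho) r
  -- the four cosets
  have hcov : ∀ r : R, r ∈ O ∨ x⁻¹ * r ∈ O ∨ y⁻¹ * r ∈ O ∨ (x * y)⁻¹ * r ∈ O := by
    intro r
    by_contra hr
    push Not at hr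
    obtain ⟨h1, h2, h3, h4⟩ := hr
    have hx : x ∉ O := fun h => hxy (hOc x h y).symm
    have hy : y ∉ O := fun h => hxy (hOc y h x)
    let f : Fin 5 → R ⧸ O := ![((1 : R) : R ⧸ O), (x : R ⧸ O), (y : R ⧸ O), ((x * y : R) : R ⧸ O), (r : R ⧸ O)]
    have e01 : ((1 : R) : R ⧸ O) ≠ (x : R ⧸ O) := fun h => hx (by simpa using QuotientGroup.eq.1 h)
    have e02 : ((1 : R) : R ⧸ O) ≠ (y : R ⧸ O) := fun h => hy (by simpa using QuotientGroup.eq.1 h)
    have e03 : ((1 : R) : R ⧸ O) ≠ ((x * y : R) : R ⧸ O) := fun h => by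
      have h5 : x * y ∈ O := by simpa using QuotientGroup.eq.1 h
      have h6 := hOc _ h5 x
      have h7 : x * (x * y) = x * (y * x) := by rw [h6, mul_assoc]
      exact hxy (mul_left_cancel h7)
    have e12 : (x : R ⧸ O) ≠ (y : R ⧸ O) := fun h => by
      have h5 : x⁻¹ * y ∈ O := QuotientGroup.eq.1 h
      have h6 := hOc _ h5 x
      rw [mul_inv_cancel_left] at h6
      apply hxy
      calc x * y = x * (x⁻¹ * y * x) := by rw [← h6]
        _ = y * x := by group
    have e13 : (x : R ⧸ O) ≠ ((x * y : R) : R ⧸ O) := fun h => hy (by simpa using QuotientGroup.eq.1 h)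
    have e23 : (y : R ⧸ O) ≠ ((x * y : R) : R ⧸ O) := fun h => by
      have h5 : y⁻¹ * (x * y) ∈ O := QuotientGroup.eq.1 h
      have h6 := hOc _ h5 y
      rw [mul_inv_cancel_left] at h6
      have h7 : x * y = (y⁻¹ * x * y) * y := by rw [h6]; group
      have h8 : x = y⁻¹ * x * y := mul_right_cancel h7
      apply hxy
      calc x * y = x * y := rfl
        _ = y * (y⁻¹ * x * y) := by group
        _ = y * x := by rw [← h8]
    have e04 : ((1 : R) : R ⧸ O) ≠ (r : R ⧸ O) := fun h => h1 (by simpa using QuotientGroup.eq.1 h)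
    have e14 : (x : R ⧸ O) ≠ (r : R ⧸ O) := fun h => h2 (QuotientGroup.eq.1 h)
    have e24 : (y : R ⧸ O) ≠ (r : R ⧸ O) := fun h => h3 (QuotientGroup.eq.1 h)
    have e34 : ((x * y : R) : R ⧸ O) ≠ (r : R ⧸ O) := fun h => h4 (QuotientGroup.eq.1 h)
    have hf : Function.Injective f := by
      intro i j hij
      fin_cases i <;> fin_cases j <;> first
        | rfl
        | (exfalso; first
            | exact e01 hij | exact e01 hij.symm | exact e02 hij | exact e02 hij.symm
            | exact e03 hij | exact e03 hij.symm | exact e12 hij | exact e12 hij.symm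
            | exact e13 hij | exact e13 hij.symm | exact e23 hij | exact e23 hij.symm
            | exact e04 hij | exact e04 hij.symm | exact e14 hij | exact e14 hij.symm
            | exact e24 hij | exact e24 hij.symm | exact e34 hij | exact e34 hij.symm)
    have h5 := Nat.card_le_card_of_injective f hf
    rw [Nat.card_eq_fintype_card, Fintype.card_fin] at h5
    have h6 : Nat.card (R ⧸ O) = O.index := rfl
    omega
  set c := ⁅x, y⁆ with hc
  -- `c ∈ O`
  have hcO : c ∈ O := by
    have hyx : y * x = c⁻¹ * (x * y) := by rw [hc, commutatorElement_def]; group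
    rcases hcov (y * x) with h | h | h | h
    · exfalso
      have h6 := hOc _ h y
      have h7 : y * (y * x) = y * (x * y) := by rw [h6, mul_assoc]
      exact hxy (mul_left_cancel h7).symm
    · exfalso
      have h6 := hOc _ h x
      apply hxy
      have h7 : y * x = x⁻¹ * (y * x) * x := by rw [← h6, mul_inv_cancel_left]
      have h8 : y = x⁻¹ * (y * x) := mul_right_cancel h7
      calc x * y = x * (x⁻¹ * (y * x)) := by rw [← h8]
        _ = y * x := by group
    · exfalso
      rw [inv_mul_cancel_left] at h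
      exact hxy (hOc x h y).symm
    · have h7 : c⁻¹ ∈ O := by
        have h8 : c⁻¹ = (x * y) * ((x * y)⁻¹ * (y * x)) * (x * y)⁻¹ := by
          rw [hc, commutatorElement_def]; group
        rw [h8, hOc _ h, mul_inv_cancel_right]
        exact h
      exact inv_mem_iff.1 h7
  refine ⟨c, he c hcO, ?_⟩
  have hcc : c ∈ center R := hO hcO
  haveI hn : (zpowers c).Normal := by
    refine ⟨fun n hn g => ?_⟩
    have h1 : n ∈ center R := (zpowers_le.2 hcc) hn
    rw [mem_center_iff.1 h1 g, mul_inv_cancel_right]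
    exact hn
  -- the quotient is commutative
  have hx' : ∀ r : R, (x : R ⧸ zpowers c) * r = r * x := by
    have hxy' : (x : R ⧸ zpowers c) * y = y * x := by
      rw [← QuotientGroup.mk_mul, ← QuotientGroup.mk_mul, QuotientGroup.eq]
      have : (x * y)⁻¹ * (y * x) = c⁻¹ := by
        have h7 : (x * y)⁻¹ * (y * x) = (x * y)⁻¹ * c⁻¹ * (x * y) := by rw [hc, commutatorElement_def]; group
        rw [h7, mem_center_iff.1 (inv_mem hcc) (x * y)⁻¹, inv_mul_cancel_right]
      rw [this]
      exact inv_mem (mem_zpowers c)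
    have hO' : ∀ o ∈ O, (x : R ⧸ zpowers c) * o = o * x := by
      intro o ho
      rw [← QuotientGroup.mk_mul, ← QuotientGroup.mk_mul, hOc o ho x]
    intro r
    rcases hcov r with h | h | h | h
    · exact hO' r h
    · have h1 : Commute (x : R ⧸ zpowers c) ((x⁻¹ * r : R) : R ⧸ zpowers c) := hO' _ h
      have h2 : Commute (x : R ⧸ zpowers c) ((x : R ⧸ zpowers c) * ((x⁻¹ * r : R) : R ⧸ zpowers c)) :=
        (Commute.refl _).mul_right h1
      rw [← QuotientGroup.mk_mul, mul_inv_cancel_left] at h2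
      exact h2
    · have h1 : Commute (x : R ⧸ zpowers c) ((y⁻¹ * r : R) : R ⧸ zpowers c) := hO' _ h
      have h2 : Commute (x : R ⧸ zpowers c) ((y : R ⧸ zpowers c) * ((y⁻¹ * r : R) : R ⧸ zpowers c)) :=
        Commute.mul_right hxy' h1
      rw [← QuotientGroup.mk_mul, mul_inv_cancel_left] at h2
      exact h2
    · have h1 : Commute (x : R ⧸ zpowers c) (((x * y)⁻¹ * r : R) : R ⧸ zpowers c) := hO' _ h
      have h2 : Commute (x : R ⧸ zpowers c) (((x : R ⧸ zpowers c) * y) * (((x * y)⁻¹ * r : R) : R ⧸ zpowers c)) :=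
        ((Commute.refl _).mul_right hxy').mul_right h1
      rw [← QuotientGroup.mk_mul, ← QuotientGroup.mk_mul, mul_inv_cancel_left] at h2
      exact h2
  have hy' : ∀ r : R, (y : R ⧸ zpowers c) * r = r * y := by
    have hO' : ∀ o ∈ O, (y : R ⧸ zpowers c) * o = o * y := by
      intro o ho
      rw [← QuotientGroup.mk_mul, ← QuotientGroup.mk_mul, hOc o ho y]
    intro r
    rcases hcov r with h | h | h | h
    · exact hO' r h
    · have h1 : Commute (y : R ⧸ zpowers c) ((x⁻¹ * r : R) : R ⧸ zpowers c) := hO' _ h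
      have h2 : Commute (y : R ⧸ zpowers c) ((x : R ⧸ zpowers c) * ((x⁻¹ * r : R) : R ⧸ zpowers c)) :=
        Commute.mul_right (hx' y).symm h1
      rw [← QuotientGroup.mk_mul, mul_inv_cancel_left] at h2
      exact h2
    · have h1 : Commute (y : R ⧸ zpowers c) ((y⁻¹ * r : R) : R ⧸ zpowers c) := hO' _ h
      have h2 : Commute (y : R ⧸ zpowers c) ((y : R ⧸ zpowers c) * ((y⁻¹ * r : R) : R ⧸ zpowers c)) :=
        (Commute.refl _).mul_right h1
      rw [← QuotientGroup.mk_mul, mul_inv_cancel_left] at h2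
      exact h2
    · have h1 : Commute (y : R ⧸ zpowers c) (((x * y)⁻¹ * r : R) : R ⧸ zpowers c) := hO' _ h
      have h2 : Commute (y : R ⧸ zpowers c) (((x : R ⧸ zpowers c) * y) * (((x * y)⁻¹ * r : R) : R ⧸ zpowers c)) :=
        (Commute.mul_right (hx' y).symm (Commute.refl _)).mul_right h1
      rw [← QuotientGroup.mk_mul, ← QuotientGroup.mk_mul, mul_inv_cancel_left] at h2
      exact h2
  have hall : ∀ s r : R, (s : R ⧸ zpowers c) * r = r * s := by
    intro s r
    have hO' : ∀ o ∈ O, Commute (r : R ⧸ zpowers c) o := by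
      intro o ho
      change (r : R ⧸ zpowers c) * o = o * r
      rw [← QuotientGroup.mk_mul, ← QuotientGroup.mk_mul, hOc o ho r]
    have hx2 : Commute (r : R ⧸ zpowers c) x := (hx' r).symm
    have hy2 : Commute (r : R ⧸ zpowers c) y := (hy' r).symm
    suffices Commute (r : R ⧸ zpowers c) s from this.eq.symm
    rcases hcov s with h | h | h | h
    · exact hO' s h
    · have h2 := hx2.mul_right (hO' _ h)
      rw [← QuotientGroup.mk_mul, mul_inv_cancel_left] at h2
      exact h2
    · have h2 := hy2.mul_right (hO' _ h)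
      rw [← QuotientGroup.mk_mul, mul_inv_cancel_left] at h2
      exact h2
    · have h2 := (hx2.mul_right hy2).mul_right (hO' _ h)
      rw [← QuotientGroup.mk_mul, ← QuotientGroup.mk_mul, mul_inv_cancel_left] at h2
      exact h2
  rw [_root_.commutator_def, commutator_le]
  intro s _ r _
  have h1 := hall s r
  rw [← QuotientGroup.mk_mul, ← QuotientGroup.mk_mul, QuotientGroup.eq] at h1
  have h2 : ⁅s, r⁆ = (r * s) * ((s * r)⁻¹ * (r * s))⁻¹ * (r * s)⁻¹ := by
    rw [commutatorElement_def]; group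
  rw [h2]
  exact hn.conj_mem _ (inv_mem h1) _

theorem caseB {H : Type*} [Group H] [Finite H] (M : Ideal AlgInt) (hM : IsPModular 2 M)
    (hk : Nat.card (principalBlock M H) = 5) (h16 : 16 ∣ Nat.card H)
    (hO : pPrimeCore 2 H = ⊥)
    (hq : ∀ N : Subgroup H, N.Normal → N ≠ ⊥ → ¬ 8 ∣ N.index)
    (hne : pCore 2 H ≠ ⊥) (hc : ¬ Subgroup.centralizer (pCore 2 H : Set H) ≤ pCore 2 H) : False := by
  haveI hOn : (pCore 2 H).Normal := inferInstance
  have hOp : IsPGroup 2 ↥(pCore 2 H) := Cfsg.Agent.Lib.Cores.pCore_isPGroup 2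
  have hodd : ∀ N : Subgroup H, N.Normal → ¬ 2 ∣ Nat.card N → N = ⊥ := by
    intro N hN h2
    have h3 := Cfsg.Agent.Lib.Cores.le_pPrimeCore (p := 2) hN ((Nat.Prime.coprime_iff_not_dvd Nat.prime_two).2 h2).symm
    rw [hO] at h3
    exact le_bot_iff.1 h3
  haveI hEn : (layer H).Normal := by
    haveI : (layer H).Characteristic := by
      rw [characteristic_iff_map_eq]
      intro ϕ
      exact Cfsg.Agent.Lib.GenFitting.map_layer ϕ
    infer_instance
  -- the layer is not trivial
  have hE : layer H ≠ ⊥ := by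
    intro hl
    apply hc
    intro x hx
    have hr : ∀ r : ℕ, r.Prime → r ≠ 2 → pCore r H = ⊥ := by
      intro r hr h2
      haveI := Fact.mk hr
      apply hodd _ inferInstance
      intro h3
      obtain ⟨k, hk⟩ := IsPGroup.iff_card.1 (Cfsg.Agent.Lib.Cores.pCore_isPGroup (G := H) r)
      rw [hk] at h3
      exact h2 ((Nat.prime_dvd_prime_iff_eq Nat.prime_two hr).1 (Nat.prime_two.dvd_of_dvd_pow h3)).symm
    have h1 := (Cfsg.Agent.Lib.GenFitting.mem_fitting_of_layer_eq_bot hl (x := x) (fun r hr' y hy => by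
      by_cases h2 : r = 2
      · subst h2
        exact mem_centralizer_iff.1 hx y hy
      · rw [hr r hr' h2, mem_bot] at hy
        rw [hy, one_mul, mul_one])).2
    have h2 : fittingSubgroup H ≤ pCore 2 H := by
      rw [Cfsg.Agent.Lib.Cores.fittingSubgroup_eq_iSup_pCore]
      refine iSup_le fun r => ?_
      by_cases h2 : (r : ℕ) = 2
      · rw [h2]
      · rw [hr r r.2 h2]
        exact bot_le
    exact h2 h1
  have hEc : layer H ≤ centralizer (pCore 2 H : Set H) :=
    Cfsg.Agent.Lib.ComponentSolvable.layer_le_centralizer_of_normal_solvable hOn (by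
      haveI := hOp.isNilpotent
      infer_instance)
  have hEperf : Group.IsPerfect ↥(layer H) := by
    rw [Subgroup.isPerfect_iff]
    refine le_antisymm (commutator_le_right _ _) ?_
    conv_lhs => rw [Cfsg.Agent.Lib.GenFitting.layer_def]
    refine sSup_le fun K hK => ?_
    have h1 : ⁅K, K⁆ = K := Subgroup.isPerfect_iff.1 hK.2.1
    have h2 : K ≤ layer H := le_sSup hK
    calc K = ⁅K, K⁆ := h1.symm
      _ ≤ ⁅layer H, layer H⁆ := commutator_mono h2 h2
  have hE2 : 2 ∣ Nat.card ↥(layer H) := by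
    by_contra h2
    exact hE (hodd _ hEn h2)
  have hEcompl : ¬ HasNormalPComplement 2 ↥(layer H) := by
    intro hX
    obtain ⟨N, hN, hpN, k, hk⟩ := OddOrderLocal.NilpotentQuotient.exists_of_hasNormalPComplement hX
    by_cases hk0 : k = 0
    · rw [hk0, pow_zero, index_eq_one] at hk
      rw [hk] at hpN
      apply hpN
      rw [Nat.card_congr (Subgroup.topEquiv (G := ↥(layer H))).toEquiv]
      exact hE2
    · haveI := hN
      have h1 : IsPGroup 2 (↥(layer H) ⧸ N) := IsPGroup.of_card (n := k) hk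
      haveI := h1.isNilpotent
      haveI : Nontrivial (↥(layer H) ⧸ N) := by
        rw [← Finite.one_lt_card_iff_nontrivial]
        have h3 : Nat.card (↥(layer H) ⧸ N) = 2 ^ k := hk
        rw [h3]
        exact Nat.one_lt_two_pow hk0
      haveI : Group.IsPerfect (↥(layer H) ⧸ N) := by
        haveI := hEperf
        exact Group.IsPerfect.ofSurjective (QuotientGroup.mk'_surjective N)
      exact Group.IsPerfect.not_isSolvable (↥(layer H) ⧸ N) inferInstance
  have hNN : ∀ x ∈ pCore 2 H, NN x := by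
    intro x hx
    apply NN.of_le hEcompl
    intro g hg
    exact (mem_centralizer_iff.1 (hEc hg) x hx).symm
  have hPE : ∀ x ∈ pCore 2 H, Cfsg.Agent.H634.HypS.PEl 2 x := by
    intro x hx
    obtain ⟨k, hk⟩ := IsPGroup.iff_orderOf.1 hOp ⟨x, hx⟩
    rw [Subgroup.orderOf_mk] at hk
    exact ⟨k, hk⟩
  -- transitivity
  have htr : ∀ x ∈ pCore 2 H, ∀ y ∈ pCore 2 H, x ≠ 1 → y ≠ 1 → IsConj x y := by
    intro x hx y hy hx1 hy1
    by_contra hxy
    have := six_of_two hM (hPE x hx) hx1 (hPE y hy) hy1 hxy (hNN x hx) (hNN y hy)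
    omega
  have hex : ∀ x ∈ pCore 2 H, x ^ 2 = 1 := by
    intro x hx
    by_cases hx1 : x = 1
    · rw [hx1, one_pow]
    obtain ⟨k, hk⟩ := hPE x hx
    have hk0 : k ≠ 0 := by
      rintro rfl
      rw [pow_zero, orderOf_eq_one_iff] at hk
      exact hx1 hk
    obtain ⟨j, rfl⟩ := Nat.exists_eq_succ_of_ne_zero hk0
    have h1 : orderOf (x ^ 2 ^ j) = 2 := by
      rw [orderOf_pow, hk, Nat.gcd_eq_right (pow_dvd_pow 2 (Nat.le_succ j)), Nat.succ_eq_add_one, pow_succ,
        Nat.mul_div_cancel_left _ (pow_pos (by norm_num) j)]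
    have h2 : x ^ 2 ^ j ≠ 1 := by
      intro h
      rw [h, orderOf_one] at h1
      omega
    have h3 := orderOf_eq_of_isConj (htr x hx _ (pow_mem hx (2 ^ j)) hx1 h2)
    rw [← h1, ← h3]
    exact pow_orderOf_eq_one x
  -- `4 ≤ |O|`
  have hcard : 4 ≤ Nat.card ↥(pCore 2 H) := by
    obtain ⟨k, hk⟩ := IsPGroup.iff_card.1 hOp
    by_contra h4
    have hk1 : k ≤ 1 := by
      by_contra h
      have : 2 ^ 2 ≤ 2 ^ k := Nat.pow_le_pow_right (by norm_num) (by omega)
      omega
    have h1 : Nat.card ↥(pCore 2 H) ∣ 2 := by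
      rw [hk]
      exact pow_dvd_pow 2 hk1
    have h2 : 8 * 2 ∣ (pCore 2 H).index * 2 := by
      have h3 := Subgroup.card_mul_index (pCore 2 H)
      have h4 : 16 ∣ 2 * (pCore 2 H).index := by
        rw [← h3] at h16
        exact h16.trans (Nat.mul_dvd_mul_right h1 _)
      have h5 : 8 * 2 = 16 := rfl
      rw [h5, mul_comm (pCore 2 H).index 2]
      exact h4
    exact hq _ hOn hne (Nat.dvd_of_mul_dvd_mul_right (by norm_num) h2)
  by_cases hEO : layer H ⊓ pCore 2 H = ⊥
  · -- three classes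
    obtain ⟨u, hu⟩ := exists_prime_orderOf_dvd_card' 2 hE2
    obtain ⟨⟨n, hn⟩, hn1'⟩ := Subgroup.ne_bot_iff_exists_ne_one.1 hne
    have hn1 : n ≠ 1 := fun h => hn1' (Subtype.ext h)
    have hu2 : orderOf (u : H) = 2 := by rw [Subgroup.orderOf_coe, hu]
    have hu1 : (u : H) ≠ 1 := by
      intro h
      rw [h, orderOf_one] at hu2
      omega
    have hcomm : n * (u : H) = u * n := mem_centralizer_iff.1 (hEc u.2) n hn
    have hnu1 : n * (u : H) ≠ 1 := by
      intro h
      have h1 : n ∈ layer H := by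
        rw [eq_inv_of_mul_eq_one_left h]
        exact inv_mem u.2
      exact hn1 (by rw [← mem_bot, ← hEO]; exact ⟨h1, hn⟩)
    have hnu2 : orderOf (n * (u : H)) = 2 := by
      have h1 : (n * (u : H)) ^ 2 = 1 := by
        rw [Commute.mul_pow hcomm, hex n hn, ← hu2, pow_orderOf_eq_one, mul_one]
      exact (Nat.prime_two.eq_one_or_self_of_dvd _ (orderOf_dvd_of_pow_eq_one h1)).resolve_left
        (fun h => hnu1 (orderOf_eq_one_iff.1 h))
    have hconj : ∀ {N : Subgroup H}, N.Normal → ∀ {a b : H}, IsConj a b → a ∈ N → b ∈ N := by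
      intro N hN a b hab ha
      obtain ⟨c, rfl⟩ := isConj_iff.1 hab
      exact hN.conj_mem a ha c
    have h6 := six_of_three hM (hPE n hn) hn1 (y := (u : H)) ⟨1, by rw [hu2]; rfl⟩ hu1 (z := n * (u : H))
      ⟨1, by rw [hnu2]; rfl⟩ hnu1 (fun h => ?_) (fun h => ?_) (fun h => ?_) (hNN n hn)
    · omega
    · have h1 := hconj hOn h hn
      exact hu1 (by rw [← mem_bot, ← hEO]; exact ⟨u.2, h1⟩)
    · have h1 := hconj hOn h hn
      have h2 : (u : H) ∈ pCore 2 H := by
        have := mul_mem (inv_mem hn) h1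
        rwa [inv_mul_cancel_left] at this
      exact hu1 (by rw [← mem_bot, ← hEO]; exact ⟨u.2, h2⟩)
    · have h1 := hconj hEn h u.2
      have h2 : n ∈ layer H := by
        have := mul_mem h1 (inv_mem u.2)
        rwa [mul_inv_cancel_right] at this
      exact hn1 (by rw [← mem_bot, ← hEO]; exact ⟨h2, hn⟩)
  · -- `O ≤ Z(E)`
    have hOE : pCore 2 H ≤ layer H := by
      obtain ⟨z, hz1⟩ := Subgroup.ne_bot_iff_exists_ne_one.1 hEO
      intro x hx
      by_cases hx1 : x = 1
      · rw [hx1]; exact one_mem _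
      obtain ⟨g, hg⟩ := isConj_iff.1 (htr z.1 z.2.2 x hx (fun h => hz1 (Subtype.ext h)) hx1)
      rw [← hg]
      exact hEn.conj_mem _ z.2.1 g
    set O' : Subgroup ↥(layer H) := (pCore 2 H).subgroupOf (layer H) with hO'
    have hO'p : IsPGroup 2 ↥O' := hOp.comap_subtype
    have hO'c : O' ≤ center ↥(layer H) := by
      intro x hx
      rw [mem_center_iff]
      intro g
      apply Subtype.ext
      exact (mem_centralizer_iff.1 (hEc g.2) x.1 hx).symm
    obtain ⟨R, hR⟩ := hO'p.exists_le_sylow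
    have hO'card : Nat.card ↥O' = Nat.card ↥(pCore 2 H) := Nat.card_congr (Subgroup.subgroupOfEquivOfLe hOE).toEquiv
    have hrel : (O'.subgroupOf (R : Subgroup ↥(layer H))).index ≤ 4 := by
      have h1 : IsPGroup 2 ↥(R : Subgroup ↥(layer H)) := R.isPGroup'
      obtain ⟨k, hk⟩ := h1.index (O'.subgroupOf (R : Subgroup ↥(layer H)))
      have h2 : (O'.subgroupOf (R : Subgroup ↥(layer H))).index ∣ (pCore 2 H).index := by
        have h3 : (O'.subgroupOf (R : Subgroup ↥(layer H))).index ∣ O'.index := by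
          haveI : O'.Normal := inferInstance
          exact Subgroup.relIndex_dvd_index_of_normal O' _
        have h4 : O'.index ∣ (pCore 2 H).index := Subgroup.relIndex_dvd_index_of_normal (pCore 2 H) _
        exact h3.trans h4
      rw [hk] at h2 ⊢
      have hk2 : k ≤ 2 := by
        by_contra h
        apply hq _ hOn hne
        exact (pow_dvd_pow 2 (by omega : 3 ≤ k)).trans h2
      calc 2 ^ k ≤ 2 ^ 2 := Nat.pow_le_pow_right (by norm_num) hk2
        _ = 4 := by norm_num
    obtain ⟨c, hc2, hcR⟩ := comm_le (O'.subgroupOf (R : Subgroup ↥(layer H))) (by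
      intro x hx
      rw [mem_center_iff]
      intro g
      apply Subtype.ext
      exact mem_center_iff.1 (hO'c hx) g.1) (by
      intro x hx
      apply Subtype.ext
      apply Subtype.ext
      exact hex _ hx) hrel
    have hle : O'.subgroupOf (R : Subgroup ↥(layer H)) ≤ zpowers c := by
      intro x hx
      exact hcR (central_mem_commutator hEperf R (hO'c hx) x.2)
    have h3 : Nat.card ↥(O'.subgroupOf (R : Subgroup ↥(layer H))) ≤ 2 := by
      refine (Nat.card_mono (Set.toFinite _) hle).trans ?_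
      have h5 := Nat.card_zpowers c
      change Nat.card ↥(zpowers c) ≤ 2
      rw [h5]
      exact Nat.le_of_dvd (by norm_num) (orderOf_dvd_of_pow_eq_one hc2)
    rw [Nat.card_congr (Subgroup.subgroupOfEquivOfLe hR).toEquiv, hO'card] at h3
    omega

end Cfsg.Agent.H158.KFive
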